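import Cfsg.Agent.Lib.Chev.CoxTorus.Weyl
import Cfsg.Agent.Lib.Chev.Struct
import Cfsg.Agent.Lib.Chev.Coord

/-!
Elements intertwining two torus elements, and torus elements in exponential coordinates.
-/

set_option autoImplicit false

namespace Cfsg.Agent.Lib.Chev.CoxTorus

open Cfsg.Lie Cfsg.Agent.Lib Cfsg.Agent.Lib.Chev

variable {D : ChevalleyDatum} {T : Fast} {F : Type*} [Field F]

/-- Integer powers of an element are controlled by its order. -/
theorem zpow_eq_iff {G : Type*} [Group G] (g : G) {M : ℕ} (hg : orderOf g = M) (a b : ℤ) :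
    g ^ a = g ^ b ↔ (a : ZMod M) = (b : ZMod M) := by
  rw [zpow_eq_zpow_iff_modEq, hg, ZMod.intCast_eq_intCast_iff]

theorem cast_fnl (R : Type*) [CommRing R] (e : Fin D.rank → ℤ) (v : ℕ) :
    ((fnl T D e v : ℤ) : R) = fnl T D (fun k => (e k : R)) v := by
  simp [fnl]

/-- Exponential coordinates of a character. -/
theorem chrOf_exp (C : Checked D T) {c : Fin D.rank → Fˣ} {g : Fˣ} {e : Fin D.rank → ℤ}
    (h : ∀ k, C.cartanMap c k = g ^ e k) {v : ℕ} (hv : v < D.nroots) :
    C.chrOf c v = ((g ^ fnl T D e v : Fˣ) : F) := by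
  rw [C.chrOf_lin c hv]
  refine congrArg Units.val ?_
  rw [fnl, zpow_sum']
  refine Finset.prod_congr rfl fun k _ => ?_
  rw [← C.cartanMap_apply, h, ← zpow_mul, Int.cast_id, mul_comm]

theorem torus_congr (C : Checked D T) {c c' : Fin D.rank → Fˣ}
    (h : ∀ v < D.nroots, C.chrOf c v = C.chrOf c' v) : C.torus c = C.torus c' :=
  Units.ext (by rw [C.val_torus, C.val_torus]; exact dg_congr h)

theorem chrOf_congr (C : Checked D T) {c c' : Fin D.rank → Fˣ} (h : C.torus c = C.torus c') :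
    ∀ v < D.nroots, C.chrOf c v = C.chrOf c' v :=
  dg_inj (by rw [← C.val_torus, ← C.val_torus, h])

/-- Conjugation of a torus element by a monomial element. -/
theorem mono_torus_iff (C : Checked D T) {n : GL D.Idx F} (hn : n ∈ D.monomialSubgroup F)
    (c c' : Fin D.rank → Fˣ) :
    n * C.torus c = C.torus c' * n ↔ ∀ v < D.nroots, C.chrOf c' (C.sg n v) = C.chrOf c v := by
  have key : ∀ c'' : Fin D.rank → Fˣ, n * C.torus c = C.torus c'' * n →
      ∀ v < D.nroots, C.chrOf c'' (C.sg n v) = C.chrOf c v := by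
    intro c'' e v hv
    obtain ⟨k, hk0, hk⟩ := C.sg_conj hn hv
    have h2 := hk (C.chrOf c v * 1)
    rw [← C.torus_xg c hv, show n * (C.torus c * C.xg v 1 * (C.torus c)⁻¹) * n⁻¹ =
      C.torus c'' * (n * C.xg v 1 * n⁻¹) * (C.torus c'')⁻¹ by
        calc n * (C.torus c * C.xg v 1 * (C.torus c)⁻¹) * n⁻¹
            = (n * C.torus c) * C.xg v 1 * (n * C.torus c)⁻¹ := by group
          _ = (C.torus c'' * n) * C.xg v 1 * (C.torus c'' * n)⁻¹ := by rw [e]
          _ = _ := by group, hk, C.torus_xg c'' (C.sg_lt hn hv)] at h2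
    have h3 := C.xg_inj (C.sg_lt hn hv) h2
    exact mul_right_cancel₀ hk0 (by simpa [mul_comm] using h3)
  refine ⟨key c', fun h => ?_⟩
  obtain ⟨c₂, hc₂⟩ := C.exists_torus (C.mono_conj_diag hn _ (C.torus_mem c))
  have e : n * C.torus c = C.torus c₂ * n := by rw [hc₂]; group
  rw [e]
  congr 1
  refine torus_congr C fun v hv => ?_
  have hu := C.sg_lt (inv_mem hn) hv
  rw [← C.sg_sg_inv hn hv, key c₂ e _ hu, h _ hu]

/-- An element in Bruhat form intertwining two torus elements. -/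
theorem conj_decomp' (C : Checked D T) {b n u : GL D.Idx F} (hb : b ∈ D.borelSubgroup F)
    (hn : n ∈ D.monomialSubgroup F) (hu : u ∈ grp D F (C.inv n)) {c c' : Fin D.rank → Fˣ}
    (hc : C.torus c' * (b * n * u) = (b * n * u) * C.torus c) :
    (∀ r < D.nroots, C.chrOf c' (C.sg n r) = C.chrOf c r) ∧
      ((∀ r, D.IsPosRoot r → C.chrOf c r ≠ 1 ∧ C.chrOf c' r ≠ 1) →
        b * n * u ∈ D.monomialSubgroup F ∧ ∀ r < D.nroots, C.sg (b * n * u) r = C.sg n r) := by
  set h := C.torus c with hhdef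
  set h' := C.torus c' with hh'def
  have hh : h ∈ D.diagonalSubgroup F := C.torus_mem c
  have hh' : h' ∈ D.diagonalSubgroup F := C.torus_mem c'
  have hconj : ∀ (e : Fin D.rank → Fˣ) (t : ℕ → F) (l : List ℕ), (∀ r ∈ l, r < D.nroots) →
      C.torus e * C.wg (l.map fun r => (r, t r)) * (C.torus e)⁻¹ =
        C.wg (l.map fun r => (r, C.chrOf e r * t r)) := by
    intro e t l
    induction l with
    | nil => intro _; simp [C.wg_nil]
    | cons r l ih =>
      intro hl
      rw [List.map_cons, List.map_cons, C.wg_cons, C.wg_cons, ← C.torus_xg e (hl r (by simp)),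
        ← ih fun x hx => hl x (by simp [hx])]
      group
  set L := C.rootList {r | D.IsPosRoot r} with hL
  have htriv : ∀ (e : Fin D.rank → Fˣ) (w : GL D.Idx F), w ∈ D.posUnipotent F →
      C.torus e * w * (C.torus e)⁻¹ = w → (∀ r, D.IsPosRoot r → C.chrOf e r ≠ 1) → w = 1 := by
    intro e w hw hfix hne
    rw [posUnipotent_eq] at hw
    obtain ⟨t, -, rfl⟩ := C.exists_coord C.closedSet_pos hw
    rw [hconj e t _ fun r hr => (C.mem_rootList.1 hr).1] at hfix
    have h0 : ∀ r ∈ C.rootList {r | D.IsPosRoot r}, t r = 0 := fun r hr => by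
      have h1 := C.ordered_inj _ (C.rootList_sorted _) (fun x hx => (C.mem_rootList.1 hx).2)
        (fun x => C.chrOf e x * t x) t hfix r hr
      by_contra h2
      exact hne r (C.mem_rootList.1 hr).2 (mul_right_cancel₀ h2 (by rwa [one_mul]))
    have hall : ∀ l : List ℕ, (∀ r ∈ l, t r = 0) → (∀ r ∈ l, r < D.nroots) →
        C.wg (l.map fun r => (r, t r)) = 1 := by
      intro l
      induction l with
      | nil => intros; simp [C.wg_nil]
      | cons r l ih =>
        intro h1 h2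
        rw [List.map_cons, C.wg_cons, h1 r (by simp), ih (fun x hx => h1 x (by simp [hx]))
          (fun x hx => h2 x (by simp [hx])), mul_one, C.xg_zero]
    exact hall _ h0 fun r hr => (C.mem_rootList.1 hr).1
  set k := h' * n * h⁻¹ * n⁻¹ with hk
  have hkd : k ∈ D.diagonalSubgroup F := by
    have := mul_mem hh' (C.mono_conj_diag hn _ (inv_mem hh))
    convert this using 1
    rw [hk]; group
  have hu' : h * u * h⁻¹ ∈ grp D F (C.inv n) := C.diag_normalizes (fun r hr => hr.1.1) hh hu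
  have hb' : h' * b * h'⁻¹ * k ∈ D.borelSubgroup F :=
    mul_mem (mul_mem (mul_mem (Subgroup.mem_sup_right hh') hb) (inv_mem (Subgroup.mem_sup_right hh')))
      (Subgroup.mem_sup_right hkd)
  have e : (h' * b * h'⁻¹ * k) * n * (h * u * h⁻¹) = b * n * u := by
    calc (h' * b * h'⁻¹ * k) * n * (h * u * h⁻¹) = h' * (b * n * u) * h⁻¹ := by rw [hk]; group
      _ = b * n * u := by rw [hc, mul_inv_cancel_right]
  obtain ⟨hbb, huu⟩ := (C.bnu_unique hb' hb hn hn hu' hu e).2 rfl
  obtain ⟨v, hv, d, hd, rfl⟩ := C.mem_borel.1 hb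
  have hdh : h' * d * h'⁻¹ = d := by rw [C.diag_comm hh' hd, mul_inv_cancel_right]
  have hvd : h' * v * h'⁻¹ * (d * k) = v * d := by
    calc h' * v * h'⁻¹ * (d * k) = h' * v * h'⁻¹ * (h' * d * h'⁻¹ * k) := by rw [hdh]
      _ = h' * (v * d) * h'⁻¹ * k := by group
      _ = v * d := hbb
  have hz : v⁻¹ * (h' * v * h'⁻¹) = d * (d * k)⁻¹ := by
    calc v⁻¹ * (h' * v * h'⁻¹) = v⁻¹ * (h' * v * h'⁻¹ * (d * k)) * (d * k)⁻¹ := by group
      _ = d * (d * k)⁻¹ := by rw [hvd]; group
  have hz1 : v⁻¹ * (h' * v * h'⁻¹) = 1 :=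
    C.eq_one_of_uni_mono (mul_mem (inv_mem hv) (C.diag_normalizes_pos hh' hv))
      (hz ▸ C.diag_le_monomial (mul_mem hd (inv_mem (mul_mem hd hkd))))
  have hk1 : k = 1 := by
    rw [hz1] at hz
    exact mul_eq_left.1 (mul_inv_eq_one.1 hz.symm).symm
  have hnh : n * h = h' * n := by
    rw [hk, mul_inv_eq_one, mul_inv_eq_iff_eq_mul] at hk1
    exact hk1.symm
  refine ⟨(mono_torus_iff C hn c c').1 hnh, fun hne => ?_⟩
  have hv1 : v = 1 := htriv c' v hv (inv_mul_eq_one.1 hz1).symm fun r hr => (hne r hr).2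
  have hupos : u ∈ D.posUnipotent F := by
    rw [posUnipotent_eq]
    exact grp_mem_mono hu fun r hr => hr.1
  have hu1 : u = 1 := htriv c u hupos huu fun r hr => (hne r hr).1
  have heq : v * d * n * u = d * n := by rw [hv1, hu1, one_mul, mul_one]
  rw [heq]
  have hd' := C.diag_le_monomial hd
  exact ⟨mul_mem hd' hn, fun r hr => by rw [C.sg_mul hd' hn hr, C.sg_diag hd (C.sg_lt hn hr)]⟩

/-- An element of the group intertwining two torus elements. -/
theorem conj_decomp (C : Checked D T) {g : GL D.Idx F} (hg : g ∈ D.group F) {c c' : Fin D.rank → Fˣ}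
    (hc : C.torus c' * g = g * C.torus c) :
    ∃ n ∈ D.monomialSubgroup F, (∀ r < D.nroots, C.chrOf c' (C.sg n r) = C.chrOf c r) ∧
      ((∀ r, D.IsPosRoot r → C.chrOf c r ≠ 1 ∧ C.chrOf c' r ≠ 1) →
        g ∈ D.monomialSubgroup F ∧ ∀ r < D.nroots, C.sg g r = C.sg n r) := by
  obtain ⟨b, hb, n, hn, u, hu, rfl⟩ := C.exists_bnu hg
  exact ⟨n, hn, conj_decomp' C hb hn hu hc⟩

/-- The kernel condition in terms of roots. -/
theorem mulVec_eq_zero_iff (C : Checked D T) {n : GL D.Idx F} (hn : n ∈ D.monomialSubgroup F)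
    {R : Type*} [CommRing R] (q : ℕ) (e : Fin D.rank → R) :
    ((Matrix.scalar (Fin D.rank) (q : ℤ) - wMat C n⁻¹).map (Int.cast : ℤ → R)).mulVec e = 0 ↔
      ∀ v < D.nroots, fnl T D e v = (q : R) * fnl T D e (C.sg n v) := by
  have hn' := inv_mem hn
  have hmap : (Matrix.scalar (Fin D.rank) (q : ℤ) - wMat C n⁻¹).map (Int.cast : ℤ → R) =
      Matrix.scalar (Fin D.rank) (q : R) - Matrix.of fun j k : Fin D.rank =>
        ((T.aux.coef (C.sg n⁻¹ (D.simple j)) k : ℤ) : R) := by
    ext i j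
    by_cases h : i = j
    · subst h
      rw [Matrix.map_apply, Matrix.sub_apply, Matrix.sub_apply, Matrix.scalar_apply, Matrix.scalar_apply,
        Matrix.diagonal_apply_eq, Matrix.diagonal_apply_eq, Int.cast_sub, Int.cast_natCast]
      rfl
    · rw [Matrix.map_apply, Matrix.sub_apply, Matrix.sub_apply, Matrix.scalar_apply, Matrix.scalar_apply,
        Matrix.diagonal_apply_ne _ h, Matrix.diagonal_apply_ne _ h, Int.cast_sub, Int.cast_zero]
      rfl
  rw [hmap, Matrix.sub_mulVec, sub_eq_zero]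
  have hl : (Matrix.scalar (Fin D.rank) (q : R)).mulVec e = fun j => (q : R) * e j := by
    funext j; simp [Matrix.mulVec_diagonal]
  rw [hl, funext_iff]
  constructor
  · intro h v hv
    conv_lhs => rw [← C.sg_inv_sg hn hv]
    rw [fnl_sg C e hn' (C.sg_lt hn hv), fnl, Finset.mul_sum]
    refine Finset.sum_congr rfl fun k _ => ?_
    have hk : (q : R) * e k = fnl T D e (C.sg n⁻¹ (D.simple k)) := h k
    rw [← hk]; ring
  · intro h j
    have hs := C.root.simple_lt j j.2
    show (q : R) * e j = fnl T D e (C.sg n⁻¹ (D.simple j))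
    rw [h _ (C.sg_lt hn' hs), C.sg_sg_inv hn hs, fnl_simple C]

end Cfsg.Agent.Lib.Chev.CoxTorus
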