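import Cfsg.Agent.Lib.Chev.CoxTorus.Conj
import Cfsg.Agent.Lib.Chev.CoxTorus.Lattice
import Cfsg.Agent.Lib.Chev.Order
import Cfsg.Agent.Lib.Chev.FieldAut
import Cfsg.Agent.Lib.Chev.TwistGens
import Mathlib.FieldTheory.Finite.Extension
import Mathlib.GroupTheory.Sylow
import Mathlib.RingTheory.RootsOfUnity.PrimitiveRoots

/-!
A cyclic self-centralizing subgroup of order `Φ_d(q)` when `φ(d)` is the rank.
-/

set_option autoImplicit false

namespace Cfsg.Agent.Lib.Chev.CoxTorus

open Cfsg.Lie Cfsg.Agent.Lib Cfsg.Agent.Lib.Chev Polynomial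

variable {D : ChevalleyDatum} {T : Fast} {F : Type*} [Field F] [Fintype F]

/-- The prime does not divide the index of the torus over a field with `Q ≡ 1`. -/
theorem conj_torus (C : Checked D T) {L : Type*} [Field L] [Fintype L] {degs : List ℕ}
    (hd : T.degCheck degs = true) (hd1 : ∀ e ∈ degs, 1 ≤ e) (hlen : degs.length = D.rank)
    (hkL : (C.cartanMap (F := L)).ker = ⊥) {r : ℕ} [hr : Fact r.Prime]
    (hbig : ∀ e ∈ degs, e < r) (hQ : (Fintype.card L : ZMod r) = 1)
    {X : GL D.Idx L} (hX : X ∈ D.group L) (hord : orderOf X = r) :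
    ∃ P ∈ D.group L, ∃ c : Fin D.rank → Lˣ, P * X * P⁻¹ = C.torus c := by
  classical
  set G := D.group L with hG
  set T' := (D.diagonalSubgroup L).subgroupOf G with hT'
  have hTcard : Nat.card T' = (Fintype.card L - 1) ^ D.rank := by
    rw [Nat.card_congr (Subgroup.subgroupOfEquivOfLe C.diag_le_group).toEquiv]
    have h := C.card_diag (F := L)
    rwa [hkL, Subgroup.card_bot, one_mul] at h
  have hidx : ¬ r ∣ T'.index := by
    intro hdvd
    have h1 := C.card_eq (F := L) hd hd1 (d := 1) (by rw [hkL, Subgroup.card_bot])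
    rw [Nat.cast_one, one_mul, ← Subgroup.card_mul_index T', hTcard] at h1
    set Q : ℤ := (Fintype.card L : ℤ) with hQdef
    have hQ1 : Q - 1 ≠ 0 := by
      have := Fintype.one_lt_card (α := L)
      omega
    have hprod : ∀ l : List ℕ, (l.map fun e => Q ^ e - 1).prod =
        (Q - 1) ^ l.length * (l.map fun e => ∑ i ∈ Finset.range e, Q ^ i).prod := by
      intro l
      induction l with
      | nil => simp
      | cons e l ih =>
        rw [List.map_cons, List.prod_cons, ih, List.map_cons, List.prod_cons, List.length_cons,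
          ← geom_sum_mul, pow_succ]
        ring
    push_cast [Nat.cast_sub Fintype.card_pos] at h1
    rw [hprod, hlen, ← hQdef] at h1
    have h2 : (T'.index : ℤ) = Q ^ T.npos * (degs.map fun e => ∑ i ∈ Finset.range e, Q ^ i).prod :=
      mul_left_cancel₀ (pow_ne_zero D.rank hQ1) (by linear_combination h1)
    have h3 := congrArg (fun z : ℤ => (z : ZMod r)) h2
    simp only [Int.cast_natCast, Int.cast_mul, Int.cast_pow, (ZMod.natCast_eq_zero_iff _ r).2 hdvd,
      hQdef, hQ, one_pow, one_mul, ← Int.coe_castRingHom, map_list_prod, List.map_map] at h3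
    refine List.prod_ne_zero ?_ h3.symm
    simp only [List.mem_map, not_exists, not_and]
    intro e he h4
    have h5 : (e : ZMod r) = 0 := by
      rw [← h4]
      simp [hQdef, hQ]
    exact absurd (Nat.le_of_dvd (hd1 e he) ((ZMod.natCast_eq_zero_iff e r).1 h5)) (not_le.2 (hbig e he))
  obtain ⟨R₀⟩ : Nonempty (Sylow r ↥T') := inferInstance
  let R₁ : Sylow r ↥G := Sylow.ofCard ((R₀ : Subgroup ↥T').map T'.subtype) (by
    rw [Subgroup.card_map_of_injective T'.subtype_injective, R₀.card_eq_multiplicity,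
      ← Subgroup.card_mul_index T', Nat.factorization_mul Nat.card_pos.ne' Subgroup.index_ne_zero_of_finite,
      Finsupp.add_apply, Nat.factorization_eq_zero_of_not_dvd hidx, add_zero])
  set x : ↥G := ⟨X, hX⟩ with hx
  have hxo : orderOf x = r := by rw [← Subgroup.orderOf_coe]; exact hord
  obtain ⟨R₂, hR₂⟩ := (IsPGroup.of_card (n := 1) (by rw [Nat.card_zpowers, hxo, pow_one]) :
    IsPGroup r (Subgroup.zpowers x)).exists_le_sylow
  obtain ⟨g, hg⟩ := MulAction.exists_smul_eq ↥G R₂ R₁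
  have hmem : g * x * g⁻¹ ∈ (R₁ : Subgroup ↥G) := by
    rw [← hg, Sylow.smul_def, Sylow.pointwise_smul_def, Subgroup.mem_pointwise_smul_iff_inv_smul_mem]
    simp only [← map_inv, MulAut.smul_def, MulAut.conj_apply, inv_inv]
    rw [show g⁻¹ * (g * x * g⁻¹) * g = x by group]
    exact hR₂ (Subgroup.mem_zpowers x)
  obtain ⟨y, -, hy⟩ := Subgroup.mem_map.1 hmem
  obtain ⟨c, hc⟩ := C.exists_torus (Subgroup.mem_subgroupOf.1 y.2)
  refine ⟨g, g.2, c, ?_⟩
  rw [hc]
  exact (congrArg Subtype.val hy).symm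

/-- Exponential coordinates. -/
theorem exists_exp {G : Type*} [CommGroup G] {g : G} (hg : ∀ z, z ∈ Subgroup.zpowers g) {l : ℕ}
    (z : Fin l → G) : ∃ e : Fin l → ℤ, ∀ k, z k = g ^ e k :=
  ⟨fun k => (hg (z k)).choose, fun k => (hg (z k)).choose_spec.symm⟩

theorem exists_cyclic (C : Checked D T) {degs : List ℕ} (hd : T.degCheck degs = true)
    (hd1 : ∀ e ∈ degs, 1 ≤ e) (hlen : degs.length = D.rank)
    (hk : ∀ (K : Type) [Field K] [Fintype K], (C.cartanMap (F := K)).ker = ⊥)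
    (hkF : (C.cartanMap (F := F)).ker = ⊥)
    {d q N r : ℕ} (hF : Fintype.card F = q) (hd0 : 0 < d) (hdl : d.totient = D.rank)
    (hdd : ∃ e ∈ degs, d ∣ e) [hr : Fact r.Prime] (hlr : D.rank + 1 < r) (hbig : ∀ e ∈ degs, e < r)
    (hrd : ¬ r ∣ d) (hrN : r ∣ N) (hN : (cyclotomic d ℤ).eval (q : ℤ) = (N : ℤ))
    (hp : ∀ p : ℕ, p.Prime → p ∣ N → ¬ p ∣ d ∨ ¬ p ^ 2 ∣ N) :
    ∃ H : Subgroup ↥(D.group F), IsCyclic ↥H ∧ Nat.card ↥H = N ∧
      Subgroup.centralizer (H : Set ↥(D.group F)) = H := by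
  classical
  have hq2 : 2 ≤ q := hF ▸ Fintype.one_lt_card (α := F)
  have hl0 : 0 < D.rank := hdl ▸ Nat.totient_pos.2 hd0
  have : NeZero (d : ZMod r) := ⟨fun h => hrd ((ZMod.natCast_eq_zero_iff d r).1 h)⟩
  have : NeZero d := ⟨hd0.ne'⟩
  have hord : orderOf (q : ZMod r) = d := by
    have h : (cyclotomic d (ZMod r)).IsRoot (q : ZMod r) := by
      rw [IsRoot, ← map_cyclotomic_int, eval_map, ← Int.cast_natCast q, ← eq_intCast (Int.castRingHom (ZMod r)),
        eval₂_at_apply, hN]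
      simpa using (ZMod.natCast_eq_zero_iff N r).2 hrN
    exact (isRoot_cyclotomic_iff.1 h).eq_orderOf.symm
  -- an element of order `r`
  obtain ⟨x, hxo⟩ : ∃ x : ↥(D.group F), orderOf x = r := by
    refine exists_prime_orderOf_dvd_card' r ?_
    rw [← ZMod.natCast_eq_zero_iff]
    have h1 := congrArg (fun z : ℤ => (z : ZMod r))
      (C.card_eq (F := F) hd hd1 (d := 1) (by rw [hkF, Subgroup.card_bot]))
    simp only [Nat.cast_one, one_mul, Int.cast_natCast, Int.cast_mul, ← Int.coe_castRingHom,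
      map_list_prod, List.map_map] at h1
    rw [h1]
    obtain ⟨e, he, hde⟩ := hdd
    refine mul_eq_zero_of_right _ (List.prod_eq_zero (List.mem_map.2 ⟨e, he, ?_⟩))
    simp [hF, orderOf_dvd_iff_pow_eq_one.1 (hord ▸ hde)]
  -- the extension field
  obtain ⟨p, hchar⟩ := CharP.exists F
  have : Fact p.Prime := ⟨CharP.char_is_prime F p⟩
  let L := FiniteField.Extension F p d
  let _ : Fintype L := Fintype.ofFinite L
  have hL : Fintype.card L = q ^ d := by
    rw [← Nat.card_eq_fintype_card, FiniteField.natCard_extension, Nat.card_eq_fintype_card, hF]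
  obtain ⟨σ, hσ⟩ : ∃ σ : L ≃+* L, ∀ t, σ t = t ^ q :=
    exists_frob (hF ▸ Fintype.isPrimePow_card_of_field) hd0.ne' hL
  let i : F →+* L := algebraMap F L
  have hsub : Set.range i ⊆ {t : L | t ^ q = t} := by
    rintro _ ⟨a, rfl⟩
    show i a ^ q = i a
    rw [← map_pow, ← hF, FiniteField.pow_card]
  have hrange : Set.range i = {t : L | t ^ q = t} := by
    refine Set.eq_of_subset_of_ncard_le hsub (le_of_eq ?_) (Set.toFinite _)
    rw [← Nat.card_coe_set_eq, ← Nat.card_coe_set_eq]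
    exact (card_frob_fixed (d := d) (by omega) hL).trans
      (by rw [Nat.card_range_of_injective i.injective, Nat.card_eq_fintype_card, hF])
  have hi : ∀ t : L, σ t = t ↔ t ∈ i.range := fun t => by
    rw [hσ]; exact (Set.ext_iff.1 hrange t).symm
  have hσi : σ.toRingHom.comp i = i := RingHom.ext fun y => (hi (i y)).2 ⟨y, rfl⟩
  have hQ : (Fintype.card L : ZMod r) = 1 := by
    rw [hL, Nat.cast_pow]; exact orderOf_dvd_iff_pow_eq_one.1 hord.dvd
  have hkL := hk L
  have hinj : Function.Injective (C.cartanMap (F := L)) := (MonoidHom.ker_eq_bot_iff _).1 hkL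
  have htinj : Function.Injective (C.torusHom (F := L)) :=
    (MonoidHom.ker_eq_bot_iff _).1 (C.ker_torusHom.trans hkL)
  have hsurj : Function.Surjective (C.cartanMap (F := L)) := Finite.injective_iff_surjective.1 hinj
  have hgt : ∀ c : Fin D.rank → Lˣ, gmap D σ.toRingHom (C.torus c) = C.torus (c ^ q) := fun c => by
    rw [C.gmap_torus]
    exact congrArg C.torus (funext fun k => Units.ext (by simp [hσ]))
  -- diagonalise `x`
  obtain ⟨X, hXdef⟩ : ∃ X, X = gmap D i (x : GL D.Idx F) := ⟨_, rfl⟩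
  have hXo : orderOf X = r := by
    rw [hXdef, orderOf_injective (gmap D i) (gmap_injective i), Subgroup.orderOf_coe, hxo]
  obtain ⟨P, hP, c, hc⟩ := conj_torus C hd hd1 hlen hkL hbig hQ (X := X) (hXdef ▸ C.gmap_group i x.2) hXo
  have hcr : c ^ r = 1 := by
    apply htinj
    show C.torusHom (c ^ r) = C.torusHom 1
    rw [map_pow, map_one]
    show (C.torus c) ^ r = 1
    rw [← hc, ← MulAut.conj_apply, ← map_pow, ← hXo, pow_orderOf_eq_one, map_one]
  have hc1 : c ≠ 1 := by
    rintro rfl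
    have : C.torus (1 : Fin D.rank → Lˣ) = 1 := map_one C.torusHom
    rw [this, mul_inv_eq_one, mul_eq_left] at hc
    rw [hc, orderOf_one] at hXo
    exact hr.out.ne_one hXo.symm
  set n₀ := gmap D σ.toRingHom P * P⁻¹ with hn₀
  have hn₀g : n₀ ∈ D.group L := mul_mem (C.gmap_group _ hP) (inv_mem hP)
  have hXfix : gmap D σ.toRingHom X = X := by rw [hXdef, gmap_gmap, hσi]
  have hrel : C.torus (c ^ q) * n₀ = n₀ * C.torus c := by
    rw [← hgt, ← hc, map_mul, map_mul, map_inv, hXfix, hn₀]; group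
  -- exponential coordinates of `c`
  have hrM : r ∣ Fintype.card Lˣ := by
    rw [Fintype.card_units, ← ZMod.natCast_eq_zero_iff, Nat.cast_sub Fintype.card_pos, hQ, Nat.cast_one, sub_self]
  obtain ⟨ζ, hζ⟩ := exists_prime_orderOf_dvd_card r hrM
  have hζp : IsPrimitiveRoot ζ r := hζ ▸ IsPrimitiveRoot.orderOf ζ
  have : NeZero r := ⟨hr.out.ne_zero⟩
  have hz : ∀ k, ∃ m : ℤ, ζ ^ m = C.cartanMap c k := by
    intro k
    refine Subgroup.mem_zpowers_iff.1 ?_
    rw [hζp.zpowers_eq, mem_rootsOfUnity, ← Pi.pow_apply, ← map_pow, hcr, map_one, Pi.one_apply]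
  choose a hza using hz
  have hcexp : ∀ v < D.nroots, C.chrOf c v = ((ζ ^ fnl T D a v : Lˣ) : L) := fun v hv =>
    chrOf_exp C (fun k => (hza k).symm) hv
  have hcexp' : ∀ v < D.nroots, C.chrOf (c ^ q) v = ((ζ ^ ((q : ℤ) * fnl T D a v) : Lˣ) : L) := by
    intro v hv
    rw [chrOf_exp C (c := c ^ q) (g := ζ) (e := fun k => a k * q) (fun k => by
      rw [map_pow, Pi.pow_apply, ← hza, ← zpow_natCast, ← zpow_mul]) hv]
    congr 2
    simp only [fnl, Finset.mul_sum, Int.cast_id]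
    exact Finset.sum_congr rfl fun k _ => by ring
  let lam : Fin D.rank → ZMod r := fun k => (a k : ZMod r)
  have hlam : lam ≠ 0 := by
    intro h0
    refine hc1 (hinj (funext fun k => ?_))
    rw [map_one, Pi.one_apply, ← hza, ← zpow_zero ζ, zpow_eq_iff ζ hζ]
    simpa using congrFun h0 k
  obtain ⟨n, hn, hnrel, hmono⟩ := conj_decomp C hn₀g hrel
  have heig : ∀ v < D.nroots, fnl T D lam (C.sg n v) * q = fnl T D lam v := by
    intro v hv
    have h1 := hnrel v hv
    rw [hcexp v hv, hcexp' _ (C.sg_lt hn hv)] at h1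
    have h2 := (zpow_eq_iff ζ hζ _ _).1 (Units.ext h1)
    rw [Int.cast_mul, cast_fnl, cast_fnl, Int.cast_natCast, mul_comm] at h2
    exact h2
  obtain ⟨hchar', h0, hreg, hstab⟩ := eigen_regular C hlr hd0 hdl hord hlam hn heig
  have hne : ∀ v < D.nroots, C.chrOf c v ≠ 1 ∧ C.chrOf (c ^ q) v ≠ 1 := by
    intro v hv
    rw [hcexp v hv, hcexp' v hv]
    have hq0 : (q : ZMod r) ≠ 0 := by
      intro hq0
      rw [hq0, orderOf_zero] at hord
      omega
    constructor <;> intro h1 <;> rw [Units.val_eq_one, ← zpow_zero ζ, zpow_eq_iff ζ hζ] at h1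
    · rw [cast_fnl, Int.cast_zero] at h1; exact hreg v hv h1
    · rw [Int.cast_mul, cast_fnl, Int.cast_natCast, Int.cast_zero] at h1
      exact hreg v hv ((mul_eq_zero.1 h1).resolve_left hq0)
  obtain ⟨hn₀m, hsg⟩ := hmono fun v hv => hne v hv.1
  -- centralizer of `h`
  have hcent : ∀ g ∈ D.group L, C.torus c * g = g * C.torus c → ∃ e, C.torus e = g := by
    intro g hg hgc
    obtain ⟨m, hm, hmrel, hmm⟩ := conj_decomp C hg hgc
    obtain ⟨hgm, hgsg⟩ := hmm fun v hv => ⟨(hne v hv.1).1, (hne v hv.1).1⟩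
    refine C.exists_torus (C.mem_diag_of_sg hgm fun v hv => ?_)
    rw [hgsg v hv]
    refine hstab m hm (fun u hu => ?_) v hv
    have h1 := hmrel u hu
    rw [hcexp u hu, hcexp _ (C.sg_lt hm hu)] at h1
    have h2 := (zpow_eq_iff ζ hζ _ _).1 (Units.ext h1)
    rwa [cast_fnl, cast_fnl] at h2
  -- the lattice
  set M := q ^ d - 1 with hMdef
  have hM0 : 0 < M := Nat.sub_pos_of_lt (Nat.one_lt_pow hd0.ne' (by omega))
  have hNM : N ∣ M := by
    have h1 := (_root_.map_dvd (evalRingHom (q : ℤ)) (cyclotomic.dvd_X_pow_sub_one d ℤ))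
    simp only [coe_evalRingHom, eval_sub, eval_pow, eval_X, eval_one, hN] at h1
    have h2 : ((M : ℕ) : ℤ) = (q : ℤ) ^ d - 1 := by
      rw [hMdef, Nat.cast_sub (Nat.one_le_pow _ _ (by omega))]; simp
    rw [← h2] at h1
    exact_mod_cast h1
  obtain ⟨γ, hγ⟩ := IsCyclic.exists_generator (α := Lˣ)
  have hγo : orderOf γ = M := by
    rw [orderOf_eq_card_of_forall_mem_zpowers hγ, Nat.card_eq_fintype_card, Fintype.card_units, hL]
  have hn' : ∀ v < D.nroots, C.sg n₀ v = C.sg n v := hsg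
  obtain ⟨w, hwo, hwker, hwgen⟩ := exists_generator hl0 (wMat C n⁻¹) hchar' h0 hN hNM hM0 hp
  obtain ⟨ew, hew⟩ : ∃ ew : Fin D.rank → ℤ, ∀ k, (ew k : ZMod M) = w k :=
    ⟨fun k => (w k).cast, fun k => ZMod.intCast_zmod_cast _⟩
  obtain ⟨c₁, hc₁⟩ := hsurj fun k => γ ^ ew k
  have hc₁' : ∀ k, C.cartanMap c₁ k = γ ^ ew k := fun k => congrFun hc₁ k
  -- a torus element is fixed iff its coordinates lie in the kernel
  have hfixiff : ∀ (e : Fin D.rank → ℤ) (c₂ : Fin D.rank → Lˣ), (∀ k, C.cartanMap c₂ k = γ ^ e k) →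
      (gmap D σ.toRingHom (P⁻¹ * C.torus c₂ * P) = P⁻¹ * C.torus c₂ * P ↔
        ((Matrix.scalar (Fin D.rank) (q : ℤ) - wMat C n⁻¹).map (Int.cast : ℤ → ZMod M)).mulVec
          (fun k => (e k : ZMod M)) = 0) := by
    intro e c₂ he
    have h1 : gmap D σ.toRingHom (P⁻¹ * C.torus c₂ * P) = P⁻¹ * C.torus c₂ * P ↔
        n₀ * C.torus c₂ = C.torus (c₂ ^ q) * n₀ := by
      rw [map_mul, map_mul, map_inv, hgt, hn₀]
      constructor <;> intro h3
      · calc gmap D σ.toRingHom P * P⁻¹ * C.torus c₂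
            = gmap D σ.toRingHom P * (P⁻¹ * C.torus c₂ * P) * P⁻¹ := by group
          _ = _ := by rw [← h3]; group
      · calc (gmap D σ.toRingHom P)⁻¹ * C.torus (c₂ ^ q) * gmap D σ.toRingHom P
            = (gmap D σ.toRingHom P)⁻¹ * (C.torus (c₂ ^ q) * (gmap D σ.toRingHom P * P⁻¹)) * P := by group
          _ = _ := by rw [← h3]; group
    rw [h1, mono_torus_iff C hn₀m, mulVec_eq_zero_iff C hn]
    refine forall₂_congr fun v hv => ?_
    rw [hn' v hv, chrOf_exp C he hv, chrOf_exp C (c := c₂ ^ q) (g := γ) (e := fun k => e k * q) (fun k => by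
      rw [map_pow, Pi.pow_apply, he, ← zpow_natCast, ← zpow_mul]) (C.sg_lt hn hv), Units.val_inj,
      zpow_eq_iff γ hγo, cast_fnl, cast_fnl, eq_comm]
    refine Eq.congr rfl ?_
    simp only [fnl, Finset.mul_sum]
    exact Finset.sum_congr rfl fun k _ => by push_cast; ring
  -- the generator
  set y₀ := P⁻¹ * C.torus c₁ * P with hy₀
  have hy₀g : y₀ ∈ D.group L :=
    mul_mem (mul_mem (inv_mem hP) (C.diag_le_group (C.torus_mem c₁))) hP
  obtain ⟨y, hy, hyeq⟩ := Subgroup.mem_map.1 (C.fixed_eq i σ hi hkL hy₀g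
    ((hfixiff ew c₁ hc₁').2 (by rw [funext hew]; exact hwker)))
  set Y : ↥(D.group F) := ⟨y, hy⟩ with hYdef
  have hpow : ∀ j : ℤ, gmap D i ((Y ^ j : ↥(D.group F)) : GL D.Idx F) = P⁻¹ * C.torus (c₁ ^ j) * P := by
    intro j
    have h1 : C.torus (c₁ ^ j) = (C.torus c₁) ^ j := map_zpow C.torusHom c₁ j
    have h2 : P⁻¹ * (C.torus c₁) ^ j * P = (P⁻¹ * C.torus c₁ * P) ^ j := by
      simpa using map_zpow (MulAut.conj P⁻¹) (C.torus c₁) j
    rw [Subgroup.coe_zpow, map_zpow, show gmap D i (Y : GL D.Idx F) = y₀ from hyeq, h1, h2, hy₀]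
  have hYo : orderOf Y = N := by
    have h1 : orderOf Y = orderOf c₁ := by
      rw [← Subgroup.orderOf_coe, ← orderOf_injective (gmap D i) (gmap_injective i),
        show gmap D i (Y : GL D.Idx F) = y₀ from hyeq, ← orderOf_injective C.torusHom htinj c₁, hy₀]
      have := orderOf_injective (MulAut.conj P⁻¹).toMonoidHom (MulAut.conj P⁻¹).injective (C.torus c₁)
      simpa [Checked.torusHom] using this
    rw [h1, ← orderOf_injective _ hinj, hc₁, ← hwo]
    refine Nat.dvd_antisymm (orderOf_dvd_of_pow_eq_one (funext fun k => ?_))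
      (addOrderOf_dvd_of_nsmul_eq_zero (funext fun k => ?_))
    · rw [Pi.pow_apply, Pi.one_apply, ← zpow_natCast, ← zpow_mul, ← zpow_zero γ, zpow_eq_iff γ hγo]
      have h2 := congrFun (addOrderOf_nsmul_eq_zero w) k
      rw [Pi.smul_apply, nsmul_eq_mul, ← hew] at h2
      push_cast
      rw [mul_comm]; exact h2
    · have h2 := congrFun (pow_orderOf_eq_one (fun k => γ ^ ew k)) k
      rw [Pi.pow_apply, Pi.one_apply, ← zpow_natCast, ← zpow_mul, ← zpow_zero γ, zpow_eq_iff γ hγo] at h2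
      push_cast at h2
      rw [Pi.smul_apply, nsmul_eq_mul, ← hew, mul_comm]
      exact h2
  have key : ∀ g : ↥(D.group F), x * g = g * x → g ∈ Subgroup.zpowers Y := by
    intro g hg
    obtain ⟨Gi, hGi⟩ : ∃ Gi, Gi = gmap D i (g : GL D.Idx F) := ⟨_, rfl⟩
    have hGc : X * Gi = Gi * X := by
      rw [hXdef, hGi, ← map_mul, ← map_mul]
      exact congrArg (gmap D i) (congrArg Subtype.val hg)
    have hcomm : C.torus c * (P * Gi * P⁻¹) = (P * Gi * P⁻¹) * C.torus c := by
      rw [← hc]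
      calc P * X * P⁻¹ * (P * Gi * P⁻¹) = P * (X * Gi) * P⁻¹ := by group
        _ = P * (Gi * X) * P⁻¹ := by rw [hGc]
        _ = _ := by group
    obtain ⟨c₂, hc₂⟩ := hcent _ (mul_mem (mul_mem hP (hGi ▸ C.gmap_group i g.2)) (inv_mem hP)) hcomm
    obtain ⟨e, he⟩ := exists_exp hγ (C.cartanMap c₂)
    have hG : Gi = P⁻¹ * C.torus c₂ * P := by rw [hc₂]; group
    have hker := (hfixiff e c₂ he).1 (by rw [← hG, hGi, gmap_gmap, hσi])
    obtain ⟨j, hj⟩ := AddSubgroup.mem_zmultiples_iff.1 (hwgen _ hker)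
    refine ⟨j, Subtype.ext (gmap_injective i ?_)⟩
    show gmap D i ((Y ^ j : ↥(D.group F)) : GL D.Idx F) = gmap D i (g : GL D.Idx F)
    rw [← hGi]
    rw [hpow, hG, show c₁ ^ j = c₂ from hinj (funext fun k => ?_)]
    rw [map_zpow, Pi.pow_apply, hc₁', he, ← zpow_mul, zpow_eq_iff γ hγo]
    have := congrFun hj k
    rw [Pi.smul_apply, zsmul_eq_mul, ← hew] at this
    push_cast
    rw [mul_comm]; exact this
  refine ⟨Subgroup.zpowers Y, inferInstance, by rw [Nat.card_zpowers, hYo], le_antisymm (fun g hg => ?_) ?_⟩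
  · obtain ⟨j, hj⟩ := key x rfl
    refine key g ?_
    have := Subgroup.mem_centralizer_iff.1 hg Y (Subgroup.mem_zpowers Y)
    rw [← hj]
    exact (Commute.zpow_left this j).eq
  · intro g hg
    rw [Subgroup.mem_centralizer_iff]
    intro z hz
    obtain ⟨j, rfl⟩ := hg
    obtain ⟨j', rfl⟩ := hz
    exact (Commute.zpow_zpow_self Y j' j).eq

end Cfsg.Agent.Lib.Chev.CoxTorus
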