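import Mathlib.RingTheory.Polynomial.Cyclotomic.Roots
import Mathlib.LinearAlgebra.Matrix.Charpoly.Coeff
import Mathlib.LinearAlgebra.Matrix.Charpoly.Minpoly

/-!
Integer matrices of finite order with an eigenvalue of order `d` modulo a large prime.
-/

set_option autoImplicit false

namespace Cfsg.Agent.Lib.Chev.CoxTorus

open Polynomial

/-- A monic rational divisor of a product of distinct cyclotomic polynomials is such a product. -/
theorem dvd_prod_cyclotomic (S : Finset ℕ) (hS : ∀ k ∈ S, 0 < k) {g : ℚ[X]} (hg : g.Monic)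
    (h : g ∣ ∏ k ∈ S, cyclotomic k ℚ) : ∃ S' ⊆ S, g = ∏ k ∈ S', cyclotomic k ℚ := by
  classical
  induction S using Finset.induction generalizing g with
  | empty =>
    refine ⟨∅, subset_rfl, ?_⟩
    rw [Finset.prod_empty] at h ⊢
    exact hg.eq_one_of_isUnit (isUnit_of_dvd_one h)
  | insert k S hk ih =>
    have hirr := cyclotomic.irreducible_rat (hS k (by simp))
    rw [Finset.prod_insert hk] at h
    by_cases hd : cyclotomic k ℚ ∣ g
    · obtain ⟨g', rfl⟩ := hd
      have hg' : g'.Monic := (cyclotomic.monic k ℚ).of_mul_monic_left hg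
      obtain ⟨S', hS', rfl⟩ := ih (fun x hx => hS x (by simp [hx])) hg'
        ((mul_dvd_mul_iff_left (cyclotomic_ne_zero k ℚ)).1 h)
      exact ⟨insert k S', Finset.insert_subset_insert k hS', (Finset.prod_insert fun hh => hk (hS' hh)).symm⟩
    · have hco : IsCoprime g (cyclotomic k ℚ) := ((hirr.coprime_iff_not_dvd).2 hd).symm
      obtain ⟨S', hS', e⟩ := ih (fun x hx => hS x (by simp [hx])) hg (hco.dvd_of_dvd_mul_left h)
      exact ⟨S', hS'.trans (Finset.subset_insert k S), e⟩

variable {l : ℕ}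

/-- Evaluation commutes with the cast of the entries. -/
theorem cast_aeval (R : Type*) [CommRing R] (M : Matrix (Fin l) (Fin l) ℤ) (f : ℤ[X]) :
    aeval (M.map (Int.cast : ℤ → R)) (f.map (Int.castRingHom R)) = (Int.castRingHom R).mapMatrix (aeval M f) := by
  have hM : M.map (Int.cast : ℤ → R) = (Int.castRingHom R).mapMatrix M := rfl
  induction f using Polynomial.induction_on' with
  | add f g hf hg => rw [Polynomial.map_add, map_add, map_add, hf, hg, map_add]
  | monomial n c =>
    rw [map_monomial, aeval_monomial, aeval_monomial, map_mul, hM, map_pow]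
    congr 1
    simp only [eq_intCast, map_intCast]

/-- The minimal polynomial of an integer matrix of finite order. -/
theorem exists_factors {M : Matrix (Fin l) (Fin l) ℤ} {m : ℕ} (hm : 0 < m) (hM : M ^ m = 1) :
    ∃ S ⊆ m.divisors, aeval M (∏ k ∈ S, cyclotomic k ℤ) = 0 ∧
      minpoly ℚ (M.map (Int.cast : ℤ → ℚ)) = ∏ k ∈ S, cyclotomic k ℚ ∧ ∑ k ∈ S, k.totient ≤ l := by
  classical
  let MQ : Matrix (Fin l) (Fin l) ℚ := M.map (Int.cast : ℤ → ℚ)
  let ι : Matrix (Fin l) (Fin l) ℤ →+* Matrix (Fin l) (Fin l) ℚ := (Int.castRingHom ℚ).mapMatrix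
  have hι : MQ = ι M := rfl
  have hint : IsIntegral ℚ MQ := Algebra.IsIntegral.isIntegral MQ
  have hdvd : minpoly ℚ MQ ∣ ∏ k ∈ m.divisors, cyclotomic k ℚ := by
    rw [prod_cyclotomic_eq_X_pow_sub_one hm]
    refine minpoly.dvd ℚ MQ ?_
    rw [map_sub, map_pow, aeval_X, map_one, hι, ← map_pow, hM, map_one, sub_self]
  obtain ⟨S, hS, e⟩ := dvd_prod_cyclotomic m.divisors (fun k hk => Nat.pos_of_mem_divisors hk)
    (minpoly.monic hint) hdvd
  refine ⟨S, hS, ?_, e, ?_⟩
  · have h0 : aeval MQ (∏ k ∈ S, cyclotomic k ℚ) = 0 := by rw [← e]; exact minpoly.aeval ℚ MQ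
    have h1 : ι (aeval M (∏ k ∈ S, cyclotomic k ℤ)) = 0 := by
      rw [← cast_aeval ℚ M, Polynomial.map_prod]
      simp only [map_cyclotomic]
      exact h0
    have hinj : Function.Injective ι := fun X Y h => Matrix.ext fun i j =>
      Int.cast_injective (congrFun (congrFun h i) j)
    exact hinj (h1.trans (map_zero ι).symm)
  · have h := Polynomial.natDegree_le_of_dvd (Matrix.minpoly_dvd_charpoly MQ) MQ.charpoly_monic.ne_zero
    rw [e, MQ.charpoly_natDegree_eq_dim, Fintype.card_fin,
      natDegree_prod _ _ fun k _ => cyclotomic_ne_zero k ℚ] at h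
    simpa [natDegree_cyclotomic] using h

/-- A matrix of large prime order is trivial. -/
theorem eq_one_of_pow_prime {r : ℕ} (hr : r.Prime) (hlr : l + 1 < r) {U : Matrix (Fin l) (Fin l) ℤ}
    (hU : U ^ r = 1) : U = 1 := by
  classical
  obtain ⟨S, hS, h0, -, hdeg⟩ := exists_factors hr.pos hU
  rw [hr.divisors] at hS
  have hr' : r ∉ S := fun h => by
    have := (Finset.single_le_sum (f := fun k => k.totient) (fun _ _ => Nat.zero_le _) h).trans hdeg
    rw [Nat.totient_prime hr] at this
    omega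
  have hS1 : S ⊆ {1} := fun x hx => by
    rcases Finset.mem_insert.1 (hS hx) with h | h
    · simp [h]
    · rw [Finset.mem_singleton] at h; exact absurd (h ▸ hx) hr'
  rcases Finset.subset_singleton_iff.1 hS1 with rfl | rfl
  · rw [Finset.prod_empty, map_one] at h0
    rw [← mul_one U, h0, mul_zero]
  · rw [Finset.prod_singleton, cyclotomic_one, map_sub, aeval_X, map_one] at h0
    exact sub_eq_zero.1 h0

theorem aeval_mulVec_eigen {R : Type*} [CommRing R] {A : Matrix (Fin l) (Fin l) R} {a : Fin l → R} {μ : R}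
    (h : A.mulVec a = μ • a) (f : R[X]) : (aeval A f).mulVec a = f.eval μ • a := by
  induction f using Polynomial.induction_on' with
  | add f g hf hg => rw [map_add, Matrix.add_mulVec, hf, hg, eval_add, add_smul]
  | monomial n c =>
    have hp : ∀ n : ℕ, (A ^ n).mulVec a = μ ^ n • a := by
      intro n
      induction n with
      | zero => simp
      | succ n ih => rw [pow_succ', ← Matrix.mulVec_mulVec, ih, Matrix.mulVec_smul, h, smul_smul, pow_succ]
    rw [aeval_monomial, eval_monomial, ← Algebra.smul_def, Matrix.smul_mulVec, hp, smul_smul]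

/-- An eigenvalue of order `d` modulo a large prime determines the characteristic polynomial. -/
theorem charpoly_eq_cyclotomic {r d : ℕ} [Fact r.Prime] (hlr : l + 1 < r) (hd : d.totient = l)
    {M : Matrix (Fin l) (Fin l) ℤ} {m : ℕ} (hm : 0 < m) (hM : M ^ m = 1) {a : Fin l → ZMod r} (ha : a ≠ 0)
    {μ : ZMod r} (hμ : orderOf μ = d) (heig : (M.map (Int.cast : ℤ → ZMod r)).mulVec a = μ • a) :
    M.charpoly = cyclotomic d ℤ ∧ aeval M (cyclotomic d ℤ) = 0 := by
  classical
  obtain ⟨S, hS, h0, e, hdeg⟩ := exists_factors hm hM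
  let Mr : Matrix (Fin l) (Fin l) (ZMod r) := M.map (Int.cast : ℤ → ZMod r)
  let ι : Matrix (Fin l) (Fin l) ℤ →+* Matrix (Fin l) (Fin l) (ZMod r) := (Int.castRingHom (ZMod r)).mapMatrix
  have h1 : aeval Mr (∏ k ∈ S, cyclotomic k (ZMod r)) = 0 := by
    have h2 := cast_aeval (ZMod r) M (∏ k ∈ S, cyclotomic k ℤ)
    rw [h0, map_zero, Polynomial.map_prod] at h2
    simp only [map_cyclotomic] at h2
    exact h2
  have h3 := aeval_mulVec_eigen heig (∏ k ∈ S, cyclotomic k (ZMod r))
  rw [h1, Matrix.zero_mulVec] at h3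
  have h4 : (∏ k ∈ S, cyclotomic k (ZMod r)).eval μ = 0 := (smul_eq_zero.1 h3.symm).resolve_right ha
  rw [eval_prod, Finset.prod_eq_zero_iff] at h4
  obtain ⟨k, hk, hk0⟩ := h4
  have hkpos : 0 < k := Nat.pos_of_mem_divisors (hS hk)
  have hkt : k.totient ≤ l :=
    (Finset.single_le_sum (f := fun k => k.totient) (fun _ _ => Nat.zero_le _) hk).trans hdeg
  have hrk : ¬ r ∣ k := fun h => by
    have := Nat.le_of_dvd (Nat.totient_pos.2 hkpos) (Nat.totient_dvd_of_dvd h)
    rw [Nat.totient_prime (Fact.out : r.Prime)] at this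
    omega
  have : NeZero (k : ZMod r) := ⟨fun h => hrk ((ZMod.natCast_eq_zero_iff k r).1 h)⟩
  have hkd : k = d := by rw [← hμ]; exact (isRoot_cyclotomic_iff.1 hk0).eq_orderOf
  subst hkd
  have hSk : S = {k} := by
    refine Finset.eq_singleton_iff_unique_mem.2 ⟨hk, fun x hx => ?_⟩
    by_contra hne
    have h5 : ∑ i ∈ ({k, x} : Finset ℕ), i.totient ≤ ∑ i ∈ S, i.totient :=
      Finset.sum_le_sum_of_subset (by simp [Finset.insert_subset_iff, hk, hx])
    rw [Finset.sum_pair (Ne.symm hne)] at h5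
    have := Nat.totient_pos.2 (Nat.pos_of_mem_divisors (hS hx))
    omega
  subst hSk
  rw [Finset.prod_singleton] at h0 e
  refine ⟨Polynomial.map_injective (Int.castRingHom ℚ) Int.cast_injective ?_, h0⟩
  rw [map_cyclotomic_int, ← Matrix.charpoly_map]
  have hd' : cyclotomic k ℚ ∣ (M.map (Int.castRingHom ℚ)).charpoly := by
    rw [← e]; exact Matrix.minpoly_dvd_charpoly _
  have hdeg' : (M.map (Int.castRingHom ℚ)).charpoly.natDegree ≤ (cyclotomic k ℚ).natDegree := by
    rw [Matrix.charpoly_natDegree_eq_dim, Fintype.card_fin, natDegree_cyclotomic, hd]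
  exact Polynomial.eq_of_monic_of_dvd_of_natDegree_le (cyclotomic.monic k ℚ) (Matrix.charpoly_monic _) hd' hdeg'

/-- A vector killed by all powers against a nonzero vector vanishes. -/
theorem eq_zero_of_orbit {d : ℕ} (hd0 : 0 < d) (hd : d.totient = l) {M : Matrix (Fin l) (Fin l) ℤ}
    (h0 : aeval M (cyclotomic d ℤ) = 0) {β c : Fin l → ℤ} (hβ : β ≠ 0)
    (h : ∀ i : ℕ, c ⬝ᵥ (M ^ i).mulVec β = 0) : c = 0 := by
  classical
  let MQ : Matrix (Fin l) (Fin l) ℚ := M.map (Int.cast : ℤ → ℚ)
  let ι : Matrix (Fin l) (Fin l) ℤ →+* Matrix (Fin l) (Fin l) ℚ := (Int.castRingHom ℚ).mapMatrix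
  let b : Fin l → ℚ := fun i => (β i : ℚ)
  have hb : b ≠ 0 := fun h => hβ (funext fun i => Int.cast_injective (α := ℚ) (by simpa [b] using congrFun h i))
  have hQ : aeval MQ (cyclotomic d ℚ) = 0 := by
    have h2 := cast_aeval ℚ M (cyclotomic d ℤ)
    rw [h0, map_zero, map_cyclotomic] at h2
    exact h2
  let W : Matrix (Fin l) (Fin l) ℚ := Matrix.of fun i j => ((MQ ^ (i : ℕ)).mulVec b) j
  have hW : W.det ≠ 0 := by
    rw [ne_eq, ← Matrix.exists_vecMul_eq_zero_iff]
    rintro ⟨v, hv, hv0⟩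
    let f : ℚ[X] := ∑ i : Fin l, monomial (i : ℕ) (v i)
    have hf : (aeval MQ f).mulVec b = 0 := by
      rw [map_sum, Matrix.sum_mulVec, ← hv0]
      funext j
      rw [Finset.sum_apply, Matrix.vecMul, dotProduct]
      refine Finset.sum_congr rfl fun i _ => ?_
      rw [aeval_monomial, ← Algebra.smul_def, Matrix.smul_mulVec]
      rfl
    have hcoef : ∀ i : Fin l, f.coeff i = v i := fun i => by
      simp only [f, finsetSum_coeff, coeff_monomial]
      rw [Finset.sum_eq_single i (fun j _ hj => if_neg fun h => hj (Fin.ext h))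
        (fun h => absurd (Finset.mem_univ i) h), if_pos rfl]
    have hf0 : f ≠ 0 := fun h => hv (funext fun i => by rw [← hcoef, h, coeff_zero]; rfl)
    have hl : 0 < l := hd ▸ Nat.totient_pos.2 hd0
    have hdeg : f.natDegree < l := by
      refine lt_of_le_of_lt (natDegree_sum_le_of_forall_le _ _ fun i _ => ?_) (Nat.sub_lt hl one_pos)
      exact (natDegree_monomial_le _).trans (Nat.le_sub_one_of_lt i.2)
    have hnd : ¬ cyclotomic d ℚ ∣ f := fun h => by
      have := natDegree_le_of_dvd h hf0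
      rw [natDegree_cyclotomic, hd] at this
      omega
    obtain ⟨u, w, huw⟩ := ((cyclotomic.irreducible_rat hd0).coprime_iff_not_dvd).2 hnd
    apply hb
    have h1 := congrArg (fun p => (aeval MQ p).mulVec b) huw
    simp only [map_add, map_mul, hQ, mul_zero, zero_add, map_one, Matrix.one_mulVec] at h1
    rw [← h1, ← Matrix.mulVec_mulVec, hf, Matrix.mulVec_zero]
  have hc : W.mulVec (fun i => (c i : ℚ)) = 0 := by
    funext i
    have h1 : MQ ^ (i : ℕ) = ι (M ^ (i : ℕ)) := (map_pow ι M i).symm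
    have h2 := congrArg (fun z : ℤ => (z : ℚ)) (h i)
    simp only [dotProduct, Int.cast_sum, Int.cast_mul, Int.cast_zero] at h2
    show (fun j => ((MQ ^ (i : ℕ)).mulVec b) j) ⬝ᵥ (fun j => (c j : ℚ)) = 0
    rw [h1, dotProduct, ← h2]
    refine Finset.sum_congr rfl fun j _ => ?_
    rw [mul_comm]
    congr 1
    simp [ι, b, Matrix.mulVec, dotProduct]
  have hc' : (fun i => (c i : ℚ)) = 0 := Matrix.eq_zero_of_mulVec_eq_zero hW hc
  exact funext fun i => Int.cast_injective (α := ℚ) (by simpa using congrFun hc' i)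

end Cfsg.Agent.Lib.Chev.CoxTorus
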