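import Cfsg.Agent.Lib.Chev.CoxTorus.Poly
import Cfsg.Agent.Lib.Chev.InvolMono
import Cfsg.Agent.Lib.Chev.SLTwoHom
import Cfsg.Agent.Lib.Chev.Extra
import Cfsg.Agent.Lib.Chev.Cent

/-!
A Weyl group element with an eigenvector of order `d` modulo a large prime: the eigenvector is regular and has
trivial stabiliser.
-/

set_option autoImplicit false

namespace Cfsg.Agent.Lib.Chev.CoxTorus

open Cfsg.Lie Cfsg.Agent.Lib Cfsg.Agent.Lib.Chev Polynomial

variable {D : ChevalleyDatum} {T : Fast} {F : Type*} [Field F]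

/-- coefficients of a root -/
def cV (T : Fast) (D : ChevalleyDatum) (v : ℕ) : Fin D.rank → ℤ := fun k => T.aux.coef v k

/-- the matrix of a monomial element -/
noncomputable def wMat (C : Checked D T) (n : GL D.Idx F) : Matrix (Fin D.rank) (Fin D.rank) ℤ :=
  Matrix.of fun j k => T.aux.coef (C.sg n (D.simple j)) k

theorem cV_sg (C : Checked D T) {n : GL D.Idx F} (hn : n ∈ D.monomialSubgroup F) {v : ℕ} (hv : v < D.nroots) :
    cV T D (C.sg n v) = Matrix.vecMul (cV T D v) (wMat C n) := by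
  funext k
  show T.aux.coef (C.sg n v) k = _
  rw [C.coef_sg hn hv k.2, Matrix.vecMul, dotProduct]
  exact (Fin.sum_univ_eq_sum_range (fun j => T.aux.coef v j * T.aux.coef (C.sg n (D.simple j)) k) D.rank).symm

theorem wMat_mul (C : Checked D T) {n m : GL D.Idx F} (hn : n ∈ D.monomialSubgroup F)
    (hm : m ∈ D.monomialSubgroup F) : wMat C (n * m) = wMat C m * wMat C n := by
  ext j k
  have hs := C.root.simple_lt j j.2
  show T.aux.coef (C.sg (n * m) (D.simple j)) k = _
  rw [C.sg_mul hn hm hs]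
  exact congrFun (cV_sg C hn (C.sg_lt hm hs)) k

theorem wMat_eq_one (C : Checked D T) {n : GL D.Idx F} (h : ∀ v < D.nroots, C.sg n v = v) : wMat C n = 1 := by
  ext j k
  show T.aux.coef (C.sg n (D.simple j)) k = _
  rw [h _ (C.root.simple_lt j j.2), C.root.coef_simple j j.2 k k.2, Matrix.one_apply]
  simp only [Fin.ext_iff, eq_comm]

theorem wMat_pow (C : Checked D T) {n : GL D.Idx F} (hn : n ∈ D.monomialSubgroup F) :
    ∀ i : ℕ, wMat C (n ^ i) = wMat C n ^ i
  | 0 => by rw [pow_zero, pow_zero]; exact wMat_eq_one C fun v hv => C.sg_one hv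
  | i + 1 => by rw [pow_succ, wMat_mul C (pow_mem hn i) hn, wMat_pow C hn i, pow_succ']

/-- the permutation of a monomial element -/
noncomputable def sgPerm (C : Checked D T) : ↥(D.monomialSubgroup F) →* Equiv.Perm (Fin D.nroots) where
  toFun n :=
    { toFun := fun v => ⟨C.sg n.1 v, C.sg_lt n.2 v.2⟩
      invFun := fun v => ⟨C.sg n.1⁻¹ v, C.sg_lt (inv_mem n.2) v.2⟩
      left_inv := fun v => Fin.ext (C.sg_inv_sg n.2 v.2)
      right_inv := fun v => Fin.ext (C.sg_sg_inv n.2 v.2) }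
  map_one' := Equiv.ext fun v => Fin.ext (C.sg_one v.2)
  map_mul' a b := Equiv.ext fun v => Fin.ext (C.sg_mul a.2 b.2 v.2)

theorem val_sgPerm (C : Checked D T) (n : ↥(D.monomialSubgroup F)) (v : Fin D.nroots) :
    (sgPerm C n v : ℕ) = C.sg n.1 v := rfl

/-- A reflection for every root. -/
theorem exists_refl (C : Checked D T) {v : ℕ} (hv : v < D.nroots) :
    ∃ n ∈ D.monomialSubgroup F, ∀ u < D.nroots, ∀ j < D.rank,
      T.aux.coef (C.sg n u) j = T.aux.coef u j - pair D v u * T.aux.coef v j := by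
  refine C.root_induction (P := fun v => ∃ n ∈ D.monomialSubgroup F, ∀ u < D.nroots, ∀ j < D.rank,
    T.aux.coef (C.sg n u) j = T.aux.coef u j - pair D v u * T.aux.coef v j) (fun i hi => ?_)
    (fun i hi s hs ih => ?_) v hv
  · refine ⟨C.ng i, C.ng_mem hi, fun u hu j hj => ?_⟩
    rw [C.sg_ng hi hu, C.root.coef_refl hi hu hj, C.root.pair_simple hi, C.root.coef_simple i hi j hj]
  · obtain ⟨n, hn, h⟩ := ih
    have hgi := C.ng_mem (F := F) hi
    refine ⟨C.ng i * n * (C.ng i)⁻¹, mul_mem (mul_mem hgi hn) (inv_mem hgi), fun u hu j hj => ?_⟩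
    have hinv : C.sg (C.ng (F := F) i)⁻¹ u = D.reflectRoot i u := by
      have h1 := C.sg_inv_sg hgi (C.root.refl_lt i hi u hu)
      rwa [C.sg_ng hi (C.root.refl_lt i hi u hu), C.root.refl_refl i hi u hu] at h1
    set w := D.reflectRoot i u with hw
    have hwl : w < D.nroots := C.root.refl_lt i hi u hu
    have hwv : pair D (D.reflectRoot i s) u = pair D s w := by
      conv_lhs => rw [← C.root.refl_refl i hi u hu]
      rw [C.root.pair_refl hi hs hwl]
    have hcart : D.cartan i (C.sg n w) = D.cartan i w - pair D s w * D.cartan i s := by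
      rw [C.root.cartan_lin i hi _ (C.sg_lt hn hwl), C.root.cartan_lin i hi _ hwl, C.root.cartan_lin i hi s hs,
        Finset.mul_sum, ← Finset.sum_sub_distrib]
      exact Finset.sum_congr rfl fun k hk => by rw [h w hwl k (Finset.mem_range.1 hk)]; ring
    rw [C.sg_mul (mul_mem hgi hn) (inv_mem hgi) hu, hinv, C.sg_mul hgi hn hwl, C.sg_ng hi (C.sg_lt hn hwl),
      C.root.coef_refl hi (C.sg_lt hn hwl) hj, h w hwl j hj, hcart, hwv, C.root.coef_refl hi hs hj]
    have hu2 := C.root.coef_refl hi hwl hj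
    rw [C.root.refl_refl i hi u hu] at hu2
    rw [hu2]
    ring

/-- a functional on roots -/
def fnl (T : Fast) (D : ChevalleyDatum) {R : Type*} [CommRing R] (a : Fin D.rank → R) (v : ℕ) : R :=
  ∑ k : Fin D.rank, (T.aux.coef v k : R) * a k

theorem fnl_simple (C : Checked D T) {R : Type*} [CommRing R] (a : Fin D.rank → R) (i : Fin D.rank) :
    fnl T D a (D.simple i) = a i := by
  rw [fnl, Finset.sum_eq_single i]
  · rw [C.root.coef_simple i i.2 i i.2]; simp
  · intro k _ hk
    rw [C.root.coef_simple i i.2 k k.2, if_neg fun h => hk (Fin.ext h)]; simp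
  · simp

theorem fnl_sg (C : Checked D T) {R : Type*} [CommRing R] (a : Fin D.rank → R) {n : GL D.Idx F}
    (hn : n ∈ D.monomialSubgroup F) {v : ℕ} (hv : v < D.nroots) :
    fnl T D a (C.sg n v) = ∑ k : Fin D.rank, (T.aux.coef v k : R) * fnl T D a (C.sg n (D.simple k)) := by
  simp only [fnl, Finset.mul_sum]
  rw [Finset.sum_comm]
  refine Finset.sum_congr rfl fun j _ => ?_
  rw [C.coef_sg hn hv j.2, ← Fin.sum_univ_eq_sum_range
    (fun k => T.aux.coef v k * T.aux.coef (C.sg n (D.simple k)) j) D.rank, Int.cast_sum, Finset.sum_mul]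
  exact Finset.sum_congr rfl fun k _ => by push_cast; ring

/-- Some Weyl translate of a regular integer functional is dominant. -/
theorem exists_dominant (C : Checked D T) (b : Fin D.rank → ℤ)
    (hb : ∀ v < D.nroots, fnl T D b v ≠ 0) :
    ∃ m ∈ D.monomialSubgroup F, ∀ v, D.IsPosRoot v → 0 < fnl T D b (C.sg m v) := by
  classical
  suffices H : ∀ (k : ℕ) (m : GL D.Idx F), m ∈ D.monomialSubgroup F →
      ((Finset.range D.nroots).filter fun v => D.IsPosRoot v ∧ fnl T D b (C.sg m v) < 0).card = k →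
      ∃ m ∈ D.monomialSubgroup F, ∀ v, D.IsPosRoot v → 0 < fnl T D b (C.sg m v) from H _ 1 (one_mem _) rfl
  intro k
  induction k using Nat.strong_induction_on with
  | _ k ih =>
  intro m hm hk
  by_cases hall : ∀ i < D.rank, 0 < fnl T D b (C.sg m (D.simple i))
  · refine ⟨m, hm, fun v hv => lt_of_le_of_ne ?_ (hb _ (C.sg_lt hm hv.1)).symm⟩
    rw [fnl_sg C b hm hv.1]
    exact Finset.sum_nonneg fun j _ => mul_nonneg (by simpa using C.coef_nonneg hv j.2) (hall j j.2).le
  push Not at hall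
  obtain ⟨i, hi, hneg⟩ := hall
  have hp := C.root.simple_lt i hi
  have hneg' : fnl T D b (C.sg m (D.simple i)) < 0 := lt_of_le_of_ne hneg (hb _ (C.sg_lt hm hp))
  set m' := m * C.ng i with hm'
  have hm'm : m' ∈ D.monomialSubgroup F := mul_mem hm (C.ng_mem hi)
  have hsg : ∀ v < D.nroots, C.sg m' v = C.sg m (D.reflectRoot i v) := fun v hv => by
    rw [hm', C.sg_mul hm (C.ng_mem hi) hv, C.sg_ng hi hv]
  refine ih _ ?_ m' hm'm rfl
  rw [← hk]
  set S := (Finset.range D.nroots).filter fun v => D.IsPosRoot v ∧ fnl T D b (C.sg m v) < 0 with hS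
  have hmem : D.simple i ∈ S := by
    simp only [hS, Finset.mem_filter, Finset.mem_range]
    exact ⟨hp, C.root.pos_simple hi, hneg'⟩
  refine lt_of_le_of_lt ?_ (Finset.card_erase_lt_of_mem hmem)
  refine Finset.card_le_card_of_injOn (fun v => D.reflectRoot i v) (fun v hv => ?_) ?_
  · simp only [Finset.coe_filter, Finset.mem_range, Set.mem_setOf_eq] at hv
    obtain ⟨hv1, hvp, hvn⟩ := hv
    have hne : v ≠ D.simple i := by
      rintro rfl
      rw [hsg _ hv1, C.root.refl_simple hi, C.sg_neg hm hp] at hvn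
      have : fnl T D b (D.neg (C.sg m (D.simple i))) = -fnl T D b (C.sg m (D.simple i)) := by
        simp only [fnl, ← Finset.sum_neg_distrib]
        exact Finset.sum_congr rfl fun j _ => by rw [C.root.coef_neg (C.sg_lt hm hp) j.2]; push_cast; ring
      omega
    obtain ⟨h1, h2⟩ := C.refl_pos hi hvp hne
    simp only [Finset.coe_erase, Set.mem_diff, Finset.mem_coe, hS, Finset.mem_filter, Finset.mem_range,
      Set.mem_singleton_iff]
    exact ⟨⟨h1.1, h1, hsg v hv1 ▸ hvn⟩, h2⟩
  · intro a ha c hc h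
    simp only [Finset.coe_filter, Finset.mem_range, Set.mem_setOf_eq] at ha hc
    exact C.root.refl_inj hi ha.1 hc.1 h

/-- The main combinatorial fact. -/
theorem eigen_regular (C : Checked D T) {r q d : ℕ} [Fact r.Prime] (hlr : D.rank + 1 < r) (hd0 : 0 < d)
    (hd : d.totient = D.rank) (hq : orderOf (q : ZMod r) = d) {a : Fin D.rank → ZMod r} (ha : a ≠ 0)
    {n : GL D.Idx F} (hn : n ∈ D.monomialSubgroup F)
    (heig : ∀ v < D.nroots, fnl T D a (C.sg n v) * q = fnl T D a v) :
    (wMat C n⁻¹).charpoly = cyclotomic d ℤ ∧ aeval (wMat C n⁻¹) (cyclotomic d ℤ) = 0 ∧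
      (∀ v < D.nroots, fnl T D a v ≠ 0) ∧
      ∀ m ∈ D.monomialSubgroup F, (∀ v < D.nroots, fnl T D a (C.sg m v) = fnl T D a v) →
        ∀ v < D.nroots, C.sg m v = v := by
  classical
  have hn' := inv_mem hn
  have heig' : ∀ v < D.nroots, fnl T D a (C.sg n⁻¹ v) = fnl T D a v * q := fun v hv => by
    rw [← heig _ (C.sg_lt hn' hv), C.sg_sg_inv hn hv]
  have hpowid : ∀ m : ↥(D.monomialSubgroup F), ∀ i : ℕ, sgPerm C m ^ i = 1 →
      wMat C m.1 ^ i = 1 := by
    intro m i h
    rw [← wMat_pow C m.2 i]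
    refine wMat_eq_one C fun v hv => ?_
    have := congrArg (fun π : Equiv.Perm (Fin D.nroots) => (π ⟨v, hv⟩ : ℕ)) h
    simp only [Equiv.Perm.coe_one, id_eq] at this
    rw [← map_pow, val_sgPerm, SubmonoidClass.coe_pow] at this
    exact this
  obtain ⟨hchar, h0⟩ := charpoly_eq_cyclotomic hlr hd
    (orderOf_pos (sgPerm C ⟨n⁻¹, hn'⟩)) (hpowid ⟨n⁻¹, hn'⟩ _ (pow_orderOf_eq_one _)) ha hq
    (by
      funext j
      have := heig' _ (C.root.simple_lt j j.2)
      rw [fnl_simple C] at this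
      rw [Pi.smul_apply, smul_eq_mul, mul_comm, ← this]
      rfl)
  refine ⟨hchar, h0, ?_⟩
  -- the stabiliser, as a group of permutations
  let lamF : Fin D.nroots → ZMod r := fun v => fnl T D a v
  let St : Subgroup (Equiv.Perm (Fin D.nroots)) :=
    { carrier := {π | ∀ v, lamF (π v) = lamF v}
      one_mem' := fun v => rfl
      mul_mem' := fun {x y} hx hy v => (hx _).trans (hy v)
      inv_mem' := fun {x} hx v => by
        conv_rhs => rw [← x.apply_symm_apply v]
        exact (hx (x.symm v)).symm }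
  let H := (sgPerm (F := F) C).range ⊓ St
  have hH : ¬ r ∣ Nat.card H := by
    intro hdvd
    obtain ⟨π, hπ⟩ := exists_prime_orderOf_dvd_card' r hdvd
    obtain ⟨m, hm⟩ := π.2.1
    have hπr : sgPerm C m ^ r = 1 := by
      rw [hm, ← hπ, ← SubmonoidClass.coe_pow, pow_orderOf_eq_one]; rfl
    have hU := eq_one_of_pow_prime (Fact.out : r.Prime) hlr (hpowid m r hπr)
    have : π = 1 := by
      refine Subtype.ext (Equiv.ext fun v => Fin.ext ?_)
      rw [← hm, val_sgPerm]
      show C.sg m.1 v = v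
      refine C.root_ext (C.sg_lt m.2 v.2) v.2 fun j hj => ?_
      have := congrFun (cV_sg C m.2 v.2) ⟨j, hj⟩
      rwa [hU, Matrix.vecMul_one] at this
    rw [this, orderOf_one] at hπ
    exact (Fact.out : r.Prime).ne_one hπ.symm
  have : Fintype H := Fintype.ofFinite H
  let a' : Fin D.rank → ℤ := fun k => ((a k).val : ℤ)
  let b : Fin D.rank → ℤ := fun k =>
    ∑ π : H, fnl T D a' ((π.1 : Equiv.Perm (Fin D.nroots)) ⟨D.simple k, C.root.simple_lt k k.2⟩ : ℕ)
  have hb : ∀ v : Fin D.nroots, fnl T D b v = ∑ π : H, fnl T D a' ((π.1 : Equiv.Perm (Fin D.nroots)) v : ℕ) := by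
    intro v
    simp only [fnl, b, Finset.mul_sum]
    rw [Finset.sum_comm]
    refine Finset.sum_congr rfl fun π _ => ?_
    obtain ⟨m, hm⟩ := π.2.1
    rw [← hm]
    simp only [val_sgPerm]
    have := fnl_sg C a' m.2 v.2
    simp only [fnl, Finset.mul_sum] at this
    exact this.symm
  have hinv : ∀ π : H, ∀ v : Fin D.nroots, fnl T D b ((π.1 : Equiv.Perm (Fin D.nroots)) v : ℕ) = fnl T D b v := by
    intro π v
    rw [hb, hb]
    exact Fintype.sum_equiv (Equiv.mulRight π) _ _ fun x => rfl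
  have hmod : ∀ v : Fin D.nroots, ((fnl T D b v : ℤ) : ZMod r) = (Nat.card H : ZMod r) * fnl T D a v := by
    intro v
    rw [hb, Int.cast_sum, Finset.sum_congr rfl (fun π _ => show
      ((fnl T D a' ((π.1 : Equiv.Perm (Fin D.nroots)) v : ℕ) : ℤ) : ZMod r) = fnl T D a v from ?_), Finset.sum_const,
      Finset.card_univ, ← Nat.card_eq_fintype_card, nsmul_eq_mul]
    rw [← show lamF ((π.1 : Equiv.Perm (Fin D.nroots)) v) = fnl T D a v from π.2.2 v]
    simp [fnl, a', lamF]
  have hHne : (Nat.card H : ZMod r) ≠ 0 := fun h => hH ((ZMod.natCast_eq_zero_iff _ r).1 h)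
  have hb0 : b ≠ 0 := by
    intro h
    refine ha (funext fun k => ?_)
    have := hmod ⟨D.simple k, C.root.simple_lt k k.2⟩
    simp only [fnl_simple C] at this
    rw [h, Pi.zero_apply, Int.cast_zero] at this
    exact (mul_eq_zero.1 this.symm).resolve_left hHne
  have hzero : ∀ v < D.nroots, fnl T D a v = 0 → fnl T D b v = 0 := by
    intro v hv hlam
    obtain ⟨m, hm, href⟩ := exists_refl (F := F) C hv
    have hsg : ∀ {R : Type} [CommRing R] (c : Fin D.rank → R), ∀ u < D.nroots,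
        fnl T D c (C.sg m u) = fnl T D c u - (pair D v u : R) * fnl T D c v := by
      intro R _ c u hu
      simp only [fnl, Finset.mul_sum, ← Finset.sum_sub_distrib]
      exact Finset.sum_congr rfl fun j _ => by rw [href u hu j j.2]; push_cast; ring
    have hmemH : sgPerm C ⟨m, hm⟩ ∈ H := ⟨⟨_, rfl⟩, fun u => by
      show fnl T D a (C.sg m u) = fnl T D a u
      rw [hsg a u u.2, hlam, mul_zero, sub_zero]⟩
    have h1 := hinv ⟨_, hmemH⟩ ⟨v, hv⟩
    rw [val_sgPerm] at h1
    rw [hsg b v hv, C.pair_self hv] at h1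
    push_cast at h1
    linarith
  have hreg : ∀ v < D.nroots, fnl T D a v ≠ 0 := by
    intro v hv hlam
    obtain ⟨j, hj, hne⟩ := C.exists_coef_ne hv
    refine hne (congrFun (eq_zero_of_orbit hd0 hd h0 hb0 (c := cV T D v) fun i => ?_) ⟨j, hj⟩)
    rw [Matrix.dotProduct_mulVec, ← wMat_pow C hn', ← cV_sg C (pow_mem hn' i) hv]
    refine hzero _ (C.sg_lt (pow_mem hn' i) hv) ?_
    induction i with
    | zero => rw [pow_zero, C.sg_one hv]; exact hlam
    | succ i ih => rw [pow_succ', C.sg_mul hn' (pow_mem hn' i) hv, heig' _ (C.sg_lt (pow_mem hn' i) hv), ih, zero_mul]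
  refine ⟨hreg, fun w hw hfix v hv => ?_⟩
  have hbreg : ∀ v < D.nroots, fnl T D b v ≠ 0 := fun v hv h => by
    have := hmod ⟨v, hv⟩
    rw [h, Int.cast_zero] at this
    exact hreg v hv ((mul_eq_zero.1 this.symm).resolve_left hHne)
  have hwH : sgPerm C ⟨w, hw⟩ ∈ H := ⟨⟨_, rfl⟩, fun u => hfix u u.2⟩
  obtain ⟨m, hm, hdom⟩ := exists_dominant (F := F) C b hbreg
  have hd' : m⁻¹ * w * m ∈ D.diagonalSubgroup F := by
    have hmem : m⁻¹ * w * m ∈ D.monomialSubgroup F := mul_mem (mul_mem (inv_mem hm) hw) hm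
    refine C.mem_diag_of_simple_pos hmem fun i hi => ?_
    have hp := C.root.simple_lt i hi
    have hu := C.sg_lt hmem hp
    refine (C.key_trichotomy hu).resolve_right fun hneg => ?_
    have h1 := hdom _ (C.root.pos_simple hi)
    have h2 := hdom _ ((C.neg_pos_iff hu).2 hneg)
    rw [C.sg_neg hm hu] at h2
    have h3 : fnl T D b (C.sg m (C.sg (m⁻¹ * w * m) (D.simple i))) = fnl T D b (C.sg m (D.simple i)) := by
      rw [C.sg_mul (mul_mem (inv_mem hm) hw) hm hp, C.sg_mul (inv_mem hm) hw (C.sg_lt hm hp),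
        C.sg_sg_inv hm (C.sg_lt hw (C.sg_lt hm hp))]
      exact hinv ⟨_, hwH⟩ ⟨_, C.sg_lt hm hp⟩
    have h4 : fnl T D b (D.neg (C.sg m (C.sg (m⁻¹ * w * m) (D.simple i)))) =
        -fnl T D b (C.sg m (C.sg (m⁻¹ * w * m) (D.simple i))) := by
      simp only [fnl, ← Finset.sum_neg_distrib]
      exact Finset.sum_congr rfl fun j _ => by rw [C.root.coef_neg (C.sg_lt hm hu) j.2]; push_cast; ring
    omega
  have hu : C.sg m⁻¹ v < D.nroots := C.sg_lt (inv_mem hm) hv
  have h5 := C.sg_diag hd' hu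
  rw [C.sg_mul (mul_mem (inv_mem hm) hw) hm hu, C.sg_sg_inv hm hv, C.sg_mul (inv_mem hm) hw hv] at h5
  have h6 := congrArg (C.sg m) h5
  rwa [C.sg_sg_inv hm (C.sg_lt hw hv), C.sg_sg_inv hm hv] at h6

end Cfsg.Agent.Lib.Chev.CoxTorus
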